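import Cfsg.Agent.H527.RC.Stmts
import Cfsg.Agent.H369.Socle
import Cfsg.Agent.H233.Simple
import Cfsg.Agent.Lib.PSolvable

/-!
# S4191, task TOP: groups without nontrivial `p`-solvable normal subgroups (helper966)

`top_of : CCAll → OutAll → TopStmt`: if `G` has no nontrivial `p`-solvable normal subgroup and the exponents of the
`p`-parts of the class sizes of the `p`-regular elements are at most `e`, then `|G|_p ≤ p ^ (2 e)`.
-/

set_option autoImplicit false

namespace Cfsg.Agent.H966.RC

open Subgroup Cfsg Cfsg.Agent.H527.RC Cfsg.Agent.H369.Socle Cfsg.Agent.SignalizersComponents.Components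

universe u

theorem isPSolvable_of_cop {G : Type u} [Group G] [Finite G] (q : ℕ) (h : (Nat.card G).Coprime q) :
    IsPSolvable q G := by
  refine ⟨1, fun i => if i = 0 then ⊥ else ⊤, by simp, by simp [Fin.last], ?_, ?_, ?_⟩
  · intro i j hij
    by_cases hi : i = 0
    · simp [hi]
    · have hj : j ≠ 0 := by
        rintro rfl
        exact hi (Fin.le_zero_iff.mp hij)
      simp [hi, hj]
  · intro i
    by_cases hi : i = 0
    · simp only [hi, if_true]; infer_instance
    · simp only [hi, if_false]; infer_instance
  · intro i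
    right
    have hi : i = 0 := Subsingleton.elim _ _
    subst hi
    simp only [Fin.castSucc_zero, if_true]
    have : (Fin.succ (0 : Fin 1) : Fin 2) ≠ 0 := by simp
    rw [if_neg this, Subgroup.relIndex_bot_left, Subgroup.card_top]
    exact h

theorem fact_le {p : ℕ} [hp : Fact p.Prime] (n : ℕ) : (n.factorial).factorization p ≤ n := by
  rcases Nat.eq_zero_or_pos n with h | h
  · subst h
    simp
  · have h1 := sub_one_mul_padicValNat_factorial_lt_of_ne_zero (p := p) h.ne'
    rw [Nat.factorization_def _ hp.out]
    have h2 : 1 ≤ p - 1 := by have := hp.out.two_le; omega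
    calc padicValNat p n.factorial ≤ (p - 1) * padicValNat p n.factorial := Nat.le_mul_of_pos_left _ h2
      _ ≤ n := h1.le

section Struct

set_option linter.unusedSectionVars false

variable {G : Type u} [Group G] [Finite G]

/-- the set of components as a type -/
abbrev Cmp (G : Type u) [Group G] : Type u := {C : Subgroup G // IsComponent C}

instance actCmp : MulAction G (Cmp G) where
  smul g C := ⟨cj g C.1, isComponent_conj g C.2⟩
  one_smul C := Subtype.ext (cj_one C.1)
  mul_smul a b C := Subtype.ext (cj_mul a b C.1)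

theorem smul_def (g : G) (C : Cmp G) : ((g • C : Cmp G) : Subgroup G) = cj g C.1 := rfl

/-- the kernel of the action on the components -/
def ker0 (G : Type u) [Group G] : Subgroup G := (MulAction.toPermHom G (Cmp G)).ker

theorem ker0_le (C : Cmp G) : ker0 G ≤ normalizer (C.1 : Set G) := by
  intro g hg
  have h1 : g • C = C := by
    have h2 : MulAction.toPermHom G (Cmp G) g = 1 := hg
    have h3 := congrArg (fun f : Equiv.Perm (Cmp G) => f C) h2
    exact h3
  have h2 : cj g C.1 = C.1 := congrArg Subtype.val h1
  rw [mem_normalizer_iff]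
  intro x
  constructor
  · intro hx
    have h3 := conj_mem_cj (h := g) hx
    rwa [h2] at h3
  · intro hx
    have h3 : g * x * g⁻¹ ∈ cj g C.1 := by rw [h2]; exact hx
    rw [mem_cj] at h3
    simpa [mul_assoc] using h3

/-- **(1)** `|G|` divides `n! ∏ |Aut C|` -/
theorem card_dvd (hR : NoSol G) [Fintype (Cmp G)] :
    Nat.card G ∣ (Nat.card (Cmp G)).factorial * ∏ C : Cmp G, Nat.card (MulAut C.1) := by
  have h1 : (ker0 G).index ∣ (Nat.card (Cmp G)).factorial := by
    rw [ker0, index_ker, ← Nat.card_perm]
    exact card_subgroup_dvd_card _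
  let ψ : ker0 G →* (∀ C : Cmp G, MulAut C.1) :=
    MonoidHom.pi fun C => (C.1.normalizerMonoidHom).comp (inclusion (ker0_le C))
  have hψ : Function.Injective ψ := by
    rw [injective_iff_map_eq_one]
    intro g hg
    apply Subtype.ext
    refine eq_one_of_centralizes hR ?_
    intro C hC x hx
    have h2 : (C.normalizerMonoidHom) (inclusion (ker0_le ⟨C, hC⟩) g) = 1 := congrFun hg ⟨C, hC⟩
    have h3 := congrArg (fun f : MulAut C => ((f ⟨x, hx⟩ : C) : G)) h2
    exact h3
  have h2 : Nat.card (ker0 G) ∣ ∏ C : Cmp G, Nat.card (MulAut C.1) := by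
    rw [← Nat.card_pi]
    exact card_dvd_of_injective ψ hψ
  rw [← card_mul_index (ker0 G), mul_comm]
  exact Nat.mul_dvd_mul h1 h2

theorem pw : Pairwise fun C D : Cmp G => ∀ x y : G, x ∈ C.1 → y ∈ D.1 → Commute x y := by
  intro C D hne x y hx hy
  exact comm_of_ne C.2 D.2 (fun h => hne (Subtype.ext h)) hx hy

/-- the multiplication map of the direct product of the components -/
noncomputable def mulC (G : Type u) [Group G] [Finite G] [Fintype (Cmp G)] : (∀ C : Cmp G, C.1) →* G :=
  Subgroup.noncommPiCoprod (pw (G := G))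

theorem mulC_single [Fintype (Cmp G)] [DecidableEq (Cmp G)] (C : Cmp G) (x : C.1) :
    mulC G (Pi.mulSingle C x) = x := by
  rw [mulC, Subgroup.noncommPiCoprod_mulSingle]

theorem mulC_inj (hR : NoSol G) [Fintype (Cmp G)] : Function.Injective (mulC G) := by
  classical
  rw [injective_iff_map_eq_one]
  intro f hf
  funext C
  have h1 : f C ∈ center C.1 := by
    rw [mem_center_iff]
    intro x
    have h2 : f * Pi.mulSingle C x * f⁻¹ = Pi.mulSingle C (f C * x * (f C)⁻¹) := by
      funext D
      by_cases hD : D = C
      · subst hD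
        simp
      · simp [Pi.mulSingle_eq_of_ne hD]
    have h3 := congrArg (mulC G) h2
    rw [map_mul, map_mul, map_inv, hf, mulC_single, mulC_single] at h3
    have h4 : (x : G) = ((f C * x * (f C)⁻¹ : C.1) : G) := by simpa using h3
    have h5 : x = f C * x * (f C)⁻¹ := Subtype.ext h4
    rw [eq_mul_inv_iff_mul_eq] at h5
    exact h5
  rw [center_eq_bot hR C.2] at h1
  exact mem_bot.1 h1

theorem mulC_range [Fintype (Cmp G)] : (mulC G).range = layer G := by
  rw [mulC, Subgroup.noncommPiCoprod_range, layer, sSup_eq_iSup']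
  rfl

theorem card_layer (hR : NoSol G) [Fintype (Cmp G)] : Nat.card (layer G) = ∏ C : Cmp G, Nat.card C.1 := by
  rw [← Nat.card_pi, ← mulC_range]
  exact (Nat.card_congr ((mulC G).ofInjective (mulC_inj hR)).toEquiv).symm

/-- **(2)** an element of `E(G)` with a centralizer in `E(G)` of order prime to `p` -/
theorem exists_elt {p : ℕ} [hp : Fact p.Prime] (hR : NoSol G) (hC : ∀ C : Cmp G, CC p C.1) :
    ∃ x : G, ¬ p ∣ orderOf x ∧ ¬ p ∣ Nat.card (layer G ⊓ centralizer ({x} : Set G) : Subgroup G) := by
  classical
  have : Fintype (Cmp G) := Fintype.ofFinite _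
  choose f hf1 hf2 using hC
  refine ⟨mulC G f, ?_, ?_⟩
  · rw [orderOf_injective _ (mulC_inj hR)]
    intro hd
    have h1 : orderOf f ∣ ∏ C : Cmp G, orderOf (f C) := by
      apply orderOf_dvd_of_pow_eq_one
      funext C
      rw [Pi.pow_apply, Pi.one_apply, ← orderOf_dvd_iff_pow_eq_one]
      exact Finset.dvd_prod_of_mem (fun C : Cmp G => orderOf (f C)) (Finset.mem_univ C)
    obtain ⟨C, -, h2⟩ := (Prime.dvd_finsetProd_iff hp.out.prime _).1 (hd.trans h1)
    exact hf1 C h2
  · intro hd
    obtain ⟨y, hy⟩ := exists_prime_orderOf_dvd_card' p hd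
    have hyG : orderOf (y : G) = p := by rw [Subgroup.orderOf_coe, hy]
    obtain ⟨hyE, hyc⟩ := y.2
    obtain ⟨g, hg⟩ : (y : G) ∈ (mulC G).range := by
      rw [mulC_range]
      exact hyE
    rw [← hg, orderOf_injective _ (mulC_inj hR)] at hyG
    have hcomm : g * f = f * g := by
      apply mulC_inj hR
      rw [map_mul, map_mul, hg]
      exact mem_centralizer_singleton_iff.1 hyc
    have hg1 : g ≠ 1 := by
      intro h
      rw [h, orderOf_one] at hyG
      exact hp.out.one_lt.ne hyG
    obtain ⟨C, hC⟩ : ∃ C, g C ≠ 1 := by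
      by_contra hcon
      push Not at hcon
      exact hg1 (funext hcon)
    have h1 : (g C) ^ p = 1 := by
      have h2 : g ^ p = 1 := by rw [← hyG]; exact pow_orderOf_eq_one g
      exact congrFun h2 C
    have h2 : orderOf (g C) = p := orderOf_eq_prime h1 hC
    apply hf2 C
    rw [← h2]
    refine Subgroup.orderOf_dvd_natCard _ ?_
    rw [mem_centralizer_singleton_iff]
    exact congrFun hcomm C

/-- **(3)** the exponent of `|E(G)|_p` is at most `e` -/
theorem layer_le_e {p : ℕ} [hp : Fact p.Prime] {e : ℕ} (hcp : Cp p e G) (hR : NoSol G)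
    (hC : ∀ C : Cmp G, CC p C.1) : (Nat.card (layer G)).factorization p ≤ e := by
  obtain ⟨x, hx1, hx2⟩ := exists_elt hR hC
  have hn : (layer G).Normal := layer_normal G
  set D := centralizer ({x} : Set G) with hD
  have h1 := hcp x hx1
  rw [← hD] at h1
  have h2 : Nat.card (layer G ⊓ D : Subgroup G) * (layer G).relIndex D = Nat.card D := by
    have h3 : (layer G).relIndex D = (layer G ⊓ D).relIndex D := (inf_relIndex_right _ _).symm
    rw [h3]
    have h4 := relIndex_mul_relIndex ⊥ (layer G ⊓ D) D bot_le inf_le_right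
    rwa [relIndex_bot_left, relIndex_bot_left] at h4
  have h3 : (layer G).relIndex D ∣ (layer G).index := relIndex_dvd_index_of_normal _ _
  have hne : ∀ K : Subgroup G, K.index ≠ 0 := fun K => K.index_ne_zero_of_finite
  have h4 : ((layer G).relIndex D).factorization p ≤ ((layer G).index).factorization p :=
    (Nat.factorization_le_iff_dvd (fun h => hne (layer G) (by rw [h] at h3; exact Nat.eq_zero_of_zero_dvd h3))
      (hne _)).2 h3 p
  have h5 : (Nat.card D).factorization p = ((layer G).relIndex D).factorization p := by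
    rw [← h2, Nat.factorization_mul Nat.card_pos.ne' (fun h => hne (layer G) (by
      rw [h] at h3; exact Nat.eq_zero_of_zero_dvd h3)), Finsupp.add_apply,
      Nat.factorization_eq_zero_of_not_dvd hx2, zero_add]
  have h6 : (Nat.card D).factorization p + D.index.factorization p = (Nat.card G).factorization p := by
    rw [← card_mul_index D, Nat.factorization_mul Nat.card_pos.ne' (hne D), Finsupp.add_apply]
  have h7 : (Nat.card (layer G)).factorization p + (layer G).index.factorization p =
      (Nat.card G).factorization p := by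
    rw [← card_mul_index (layer G), Nat.factorization_mul Nat.card_pos.ne' (hne _), Finsupp.add_apply]
  omega

end Struct

/-- **Task TOP.** -/
theorem top_of (hC : CCAll.{u}) (hO : OutAll.{u}) : TopStmt.{u} := by
  classical
  intro p hp G _ _ e hcp hN
  have : Fintype (Cmp G) := Fintype.ofFinite _
  have hR : NoSol G := by
    intro K hK hs
    exact hN K hK (Lib.PSolvable.IsPSolvable_of_solvable p)
  have hP : pPrimeCore p G = ⊥ := by
    exact hN _ (Lib.Cores.pPrimeCore_normal p) (isPSolvable_of_cop p (Lib.Cores.pPrimeCore_coprime p))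
  have hna : ∀ C : Cmp G, ¬ IsMulCommutative C.1 := fun C h => not_comm C.2 fun a b => h.is_comm.comm a b
  have hsim : ∀ C : Cmp G, IsSimpleGroup C.1 := fun C => isSimple hR C.2
  have hd : ∀ C : Cmp G, p ∣ Nat.card C.1 := fun C => H233.Simple.dvd_card_component hP C.2
  have hCC : ∀ C : Cmp G, CC p C.1 := by
    intro C
    have := hsim C
    exact hC p hp.out C.1 (hna C)
  have hOO : ∀ C : Cmp G, (Nat.card (MulAut C.1)).factorization p + 1 ≤ 2 * (Nat.card C.1).factorization p := by
    intro C
    have := hsim C
    exact hO p hp.out C.1 (hna C) (hd C)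
  have h1 := card_dvd hR
  have h2 : (Nat.card G).factorization p ≤
      ((Nat.card (Cmp G)).factorial * ∏ C : Cmp G, Nat.card (MulAut C.1)).factorization p := by
    refine (Nat.factorization_le_iff_dvd Nat.card_pos.ne' ?_).2 h1 p
    refine mul_ne_zero (Nat.factorial_ne_zero _) (Finset.prod_ne_zero_iff.2 fun C _ => Nat.card_pos.ne')
  rw [Nat.factorization_mul (Nat.factorial_ne_zero _) (Finset.prod_ne_zero_iff.2 fun C _ => Nat.card_pos.ne'),
    Finsupp.add_apply, Nat.factorization_prod (fun C _ => Nat.card_pos.ne'), Finsupp.finsetSum_apply] at h2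
  have h3 := fact_le (p := p) (Nat.card (Cmp G))
  have h4 : (Nat.card (layer G)).factorization p = ∑ C : Cmp G, (Nat.card C.1).factorization p := by
    rw [card_layer hR, Nat.factorization_prod (fun C _ => Nat.card_pos.ne'), Finsupp.finsetSum_apply]
  have h5 := layer_le_e hcp hR hCC
  have h6 : ∑ C : Cmp G, ((Nat.card (MulAut C.1)).factorization p + 1) ≤
      ∑ C : Cmp G, 2 * (Nat.card C.1).factorization p := Finset.sum_le_sum fun C _ => hOO C
  rw [Finset.sum_add_distrib, ← Finset.mul_sum, ← h4] at h6
  simp only [Finset.sum_const, Finset.card_univ, smul_eq_mul, mul_one, ← Nat.card_eq_fintype_card] at h6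
  omega

end Cfsg.Agent.H966.RC
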